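/-
Elementary abelian subgroups of the Weyl group of type E8: their weights.
-/
import Cfsg.Agent.INV.STD.O8B

set_option autoImplicit false

namespace CL.StdO8

open Matrix Subgroup Finset

theorem card_le_of_orth {κ : Type} [Fintype κ] (v : κ → Fin 8 → ℚ) (h0 : ∀ i, v i ≠ 0)
    (h : ∀ i j, i ≠ j → v i ⬝ᵥ v j = 0) : Fintype.card κ ≤ 8 := by
  have : LinearIndependent ℚ v := Fintype.linearIndependent_iff.2 fun g hg j => by
    have := congrArg (· ⬝ᵥ v j) hg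
    simp only [sum_dotProduct, smul_dotProduct, zero_dotProduct] at this
    rw [sum_eq_single j (fun i _ hi => by rw [h i j hi, smul_zero]) (by simp), smul_eq_mul, mul_eq_zero,
      dotProduct_self_eq_zero] at this
    exact this.resolve_right (h0 j)
  simpa using this.fintype_card_le_finrank

variable {B : Type} [AddCommGroup B] {φ : B → W}

/-- `v` is a weight vector -/
def Ev (φ : B → W) (χ : B → ZMod 2) (v : Fin 8 → ℚ) : Prop :=
  v ≠ 0 ∧ ∀ b, mat (φ b) *ᵥ v = (sg (χ b) : ℚ) • v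

theorem sg_cancel {a b : ZMod 2} {v : Fin 8 → ℚ} (hv : v ≠ 0) (h : (sg a : ℚ) • v = (sg b : ℚ) • v) : a = b :=
  sg_inj (Int.cast_injective (smul_left_injective ℚ hv h))

theorem Ev.add (hφ : ∀ a b, φ (a + b) = φ a * φ b) {χ : B → ZMod 2} {v : Fin 8 → ℚ} (h : Ev φ χ v) (a b : B) :
    χ (a + b) = χ a + χ b := sg_cancel h.1 (by
  rw [← h.2, hφ, map_mul, ← mulVec_mulVec, h.2, mulVec_smul, h.2, smul_smul, sg_add, Int.cast_mul, mul_comm])

omit [AddCommGroup B] in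
theorem Ev.neg {χ : B → ZMod 2} {v : Fin 8 → ℚ} (h : Ev φ χ v) {u : B} (hu : φ u = e 1) : χ u = 1 :=
  sg_cancel h.1 (by rw [← h.2, hu, mat_e_one, neg_mulVec, one_mulVec]; simp [sg])

omit [AddCommGroup B] in
theorem Ev.orth {χ ψ : B → ZMod 2} {v w : Fin 8 → ℚ} (h : Ev φ χ v) (h' : Ev φ ψ w) (hn : χ ≠ ψ) :
    v ⬝ᵥ w = 0 := by
  obtain ⟨b, hb⟩ := Function.ne_iff.1 hn
  have := dot_mulVec (mat_ok (φ b)).1 v w
  rw [h.2, h'.2, smul_dotProduct, dotProduct_smul, smul_smul, ← Int.cast_mul,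
    show sg (χ b) * sg (ψ b) = -1 by revert hb; generalize χ b = x, ψ b = y; revert x y; decide] at this
  simp only [Int.cast_neg, Int.cast_one, smul_eq_mul] at this
  linarith

theorem mulVec_ne {w : W} {v : Fin 8 → ℚ} (hv : v ≠ 0) : mat w *ᵥ v ≠ 0 := fun h => hv (by
  rw [← dotProduct_self_eq_zero, ← dot_mulVec (mat_ok w).1, h, zero_dotProduct])

omit [AddCommGroup B] in
theorem Ev.conj {χ : B → ZMod 2} {v : Fin 8 → ℚ} (h : Ev φ χ v) {σ : B → B} {w : W}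
    (hw : ∀ b, φ (σ b) = w * φ b * w⁻¹) : Ev φ (χ ∘ σ) (mat w⁻¹ *ᵥ v) := ⟨mulVec_ne h.1, fun b => by
  rw [← mulVec_smul, Function.comp, ← h.2, hw, mulVec_mulVec, mulVec_mulVec, ← map_mul, ← map_mul]
  congr 2; group⟩

theorem exists_ev [Finite B] (hφ : ∀ a b, φ (a + b) = φ a * φ b) (h2 : ∀ a : B, a + a = 0) {b : B}
    (hb : φ b ≠ 1) : ∃ χ v, Ev φ χ v ∧ χ b = 1 := by
  classical
  have := Fintype.ofFinite B
  have h0 : φ 0 = 1 := by simpa using hφ 0 0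
  have hs : ∀ a v, mat (φ a) *ᵥ mat (φ a) *ᵥ v = v := fun a v => by
    rw [mulVec_mulVec, ← map_mul, ← hφ, h2, h0, map_one, one_mulVec]
  have hc : ∀ a c v, mat (φ a) *ᵥ mat (φ c) *ᵥ v = mat (φ c) *ᵥ mat (φ a) *ᵥ v := fun a c v => by
    rw [mulVec_mulVec, mulVec_mulVec, ← map_mul, ← map_mul, ← hφ, ← hφ, add_comm]
  have key : ∀ T : Finset B, ∃ v ≠ 0, mat (φ b) *ᵥ v = -v ∧
      ∀ a ∈ T, ∃ x : ZMod 2, mat (φ a) *ᵥ v = (sg x : ℚ) • v := fun T => by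
    induction T using Finset.induction_on with
    | empty =>
      obtain ⟨v, hv⟩ : ∃ v, mat (φ b) *ᵥ v ≠ v := by
        by_contra! h
        exact hb (mat_inj (ext_of_mulVec_single fun i => by rw [h, map_one, one_mulVec]))
      exact ⟨mat (φ b) *ᵥ v - v, sub_ne_zero.2 hv, by rw [mulVec_sub, hs, neg_sub], by simp⟩
    | insert a T _ ih =>
      obtain ⟨v, hv, h1, h3⟩ := ih
      by_cases h : mat (φ a) *ᵥ v + v = 0
      · exact ⟨v, hv, h1, forall_mem_insert _ _ _ |>.2 ⟨⟨1, by simp [sg, eq_neg_of_add_eq_zero_left h]⟩, h3⟩⟩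
      · refine ⟨_, h, by rw [mulVec_add, hc, h1, mulVec_neg, neg_add], forall_mem_insert _ _ _ |>.2
          ⟨⟨0, by rw [mulVec_add, hs, add_comm]; simp [sg]⟩, fun c hc' => ?_⟩⟩
        obtain ⟨x, hx⟩ := h3 c hc'
        exact ⟨x, by rw [mulVec_add, hc, hx, mulVec_smul, smul_add]⟩
  obtain ⟨v, hv, h1, h3⟩ := key univ
  choose χ hχ using fun a => h3 a (mem_univ a)
  exact ⟨χ, v, ⟨hv, hχ⟩, sg_cancel hv (by rw [← hχ, h1]; simp [sg])⟩

theorem card_le_pow [Finite B] (hφ : ∀ a b, φ (a + b) = φ a * φ b) (h2 : ∀ a : B, a + a = 0)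
    {C : Type} [Fintype C] {j : C → B}
    (hi : ∀ a b, φ (j a) = φ (j b) → a = b) {R : Finset (C → ZMod 2)}
    (hR : ∀ χ v, Ev φ χ v → χ ∘ j ∈ R) : Fintype.card C ≤ 2 ^ R.card := by
  classical
  have h0 : φ 0 = 1 := by simpa using hφ 0 0
  have := Fintype.card_le_of_injective (fun (c : C) (χ : R) => χ.1 c) fun a b h => hi a b (by
    by_contra hn
    obtain ⟨χ, v, h1, h3⟩ := exists_ev hφ h2 (b := j a + j b) fun t => hn (by
      rw [← mul_one (φ (j b)), ← t, ← hφ, add_left_comm, h2, add_zero])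
    have h4 : χ (j a) = χ (j b) := congrFun h ⟨_, hR χ v h1⟩
    rw [h1.add hφ, h4, CharTwo.add_self_eq_zero] at h3
    exact zero_ne_one h3)
  simpa using this

theorem card_le_of_J [Fintype B] (hφ : ∀ a b, φ (a + b) = φ a * φ b) (h2 : ∀ a : B, a + a = 0)
    (hi : Function.Injective φ) {J : W} (hJ : J * J = e 1) (hc : ∀ b, J * φ b = φ b * J) :
    Fintype.card B ≤ 16 := by
  classical
  let R : Finset (B → ZMod 2) := univ.filter fun χ => ∃ v, Ev φ χ v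
  have h1 := card_le_pow hφ h2 (j := id) hi (R := R) fun χ v h => by
    simp only [R, mem_filter, mem_univ, true_and]; exact ⟨v, h⟩
  choose v hv using fun χ : R => (mem_filter.1 χ.2).2
  have h3 : ∀ χ : R, Ev φ χ.1 (mat J⁻¹ *ᵥ v χ) := fun χ =>
    (hv χ).conj (σ := id) fun b => by rw [hc, mul_inv_cancel_right]; rfl
  have h4 : ∀ x : Fin 8 → ℚ, x ⬝ᵥ mat J⁻¹ *ᵥ x = 0 := fun x => by
    have := dot_mulVec (mat_ok J⁻¹).1 x (mat J⁻¹ *ᵥ x)
    rw [mulVec_mulVec, ← map_mul, ← _root_.mul_inv_rev, hJ, e_inv, mat_e_one, neg_mulVec, one_mulVec,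
      dotProduct_neg, dotProduct_comm] at this
    linarith
  have h5 : ∀ p : R × Bool, Ev φ p.1.1 (if p.2 then v p.1 else mat J⁻¹ *ᵥ v p.1) := fun p => by
    split_ifs
    exacts [hv _, h3 _]
  have h6 := card_le_of_orth _ (fun p => (h5 p).1) fun p q hpq => by
    by_cases t : p.1 = q.1
    · obtain ⟨p, a⟩ := p
      obtain ⟨q, b⟩ := q
      obtain rfl : p = q := t
      cases a <;> cases b <;> simp [h4, dotProduct_comm (mat J⁻¹ *ᵥ v p)] at hpq ⊢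
    · exact (h5 p).orth (h5 q) fun e => t (Subtype.ext e)
  simp only [Fintype.card_prod, Fintype.card_coe, Fintype.card_bool] at h6
  exact h1.trans (Nat.pow_le_pow_right two_pos (by omega : R.card ≤ 4))

theorem no_A4 [Finite B] (hφ : ∀ a b, φ (a + b) = φ a * φ b) (h2 : ∀ a : B, a + a = 0)
    {s t θ : B → B} (hs : ∃ w, ∀ b, φ (s b) = w * φ b * w⁻¹) (ht : ∃ w, ∀ b, φ (t b) = w * φ b * w⁻¹)
    (hθ : ∃ w, ∀ b, φ (θ b) = w * φ b * w⁻¹) (r1 : s ∘ s = id) (r2 : t ∘ t = id) (r3 : s ∘ t = t ∘ s)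
    (r4 : θ ∘ θ ∘ θ = id) (r5 : s ∘ θ = θ ∘ t) (r6 : t ∘ θ = θ ∘ s ∘ t) {a b : B}
    (hu : φ (a + s a + (b + t b)) = e 1) {j : (Fin 4 → ZMod 2) → B}
    (hi : ∀ a b, φ (j a) = φ (j b) → a = b) (js : s ∘ j = j) (jt : t ∘ j = j) : False := by
  classical
  have := Fintype.ofFinite B
  let X : Finset (B → ZMod 2) := univ.filter fun χ => ∃ v, Ev φ χ v
  have mX : ∀ χ, χ ∈ X ↔ ∃ v, Ev φ χ v := fun χ => by simp [X]
  have cX : ∀ {σ : B → B}, (∃ w, ∀ b, φ (σ b) = w * φ b * w⁻¹) → ∀ χ ∈ X, χ ∘ σ ∈ X :=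
    fun ⟨w, hw⟩ χ h => let ⟨_, hv⟩ := (mX _).1 h; (mX _).2 ⟨_, hv.conj hw⟩
  have h8 : X.card ≤ 8 := by
    choose v hv using fun χ : X => (mX _).1 χ.2
    simpa using card_le_of_orth v (fun χ => (hv χ).1) fun p q h => (hv p).orth (hv q) fun e => h (Subtype.ext e)
  have h4 : 4 ≤ (X.image (· ∘ j)).card := by
    have := card_le_pow hφ h2 hi (R := X.image (· ∘ j)) fun χ v h => mem_image_of_mem _ ((mX _).2 ⟨v, h⟩)
    exact (Nat.pow_le_pow_iff_right one_lt_two).1 (by simpa using this)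
  have nf : ∀ χ ∈ X, χ ∘ s = χ → χ ∘ t ≠ χ := fun χ h e1 e2 => by
    obtain ⟨v, hv⟩ := (mX _).1 h
    have := hv.neg hu
    rw [hv.add hφ, hv.add hφ, hv.add hφ, show χ (s a) = χ a from congrFun e1 a,
      show χ (t b) = χ b from congrFun e2 b, CharTwo.add_self_eq_zero, CharTwo.add_self_eq_zero] at this
    exact absurd this (by decide)
  have ms : ∀ χ ∈ X, ∀ y, χ ∘ j = y → χ ∘ s ∈ X.filter (· ∘ j = y) := fun χ h y e =>
    mem_filter.2 ⟨cX hs χ h, by rw [Function.comp_assoc, js, e]⟩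
  have mt : ∀ χ ∈ X, ∀ y, χ ∘ j = y → χ ∘ t ∈ X.filter (· ∘ j = y) := fun χ h y e =>
    mem_filter.2 ⟨cX ht χ h, by rw [Function.comp_assoc, jt, e]⟩
  have f2 : ∀ y ∈ X.image (· ∘ j), 2 ≤ (X.filter (· ∘ j = y)).card := fun y hy => by
    obtain ⟨χ, h, e⟩ := mem_image.1 hy
    by_cases e1 : χ ∘ s = χ
    · exact one_lt_card.2 ⟨_, mt χ h y e, χ, mem_filter.2 ⟨h, e⟩, nf χ h e1⟩
    · exact one_lt_card.2 ⟨_, ms χ h y e, χ, mem_filter.2 ⟨h, e⟩, e1⟩
  have h9 := mul_card_image_le_card X 2 f2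
  let T : Function.End X := fun χ => ⟨χ.1 ∘ θ, cX hθ _ χ.2⟩
  have : Fact (Nat.Prime 3) := ⟨Nat.prime_three⟩
  have h3 := Equiv.Perm.card_fixedPoints_modEq (f := T) (p := 3) (n := 1) (funext fun χ => Subtype.ext (by
    change ((χ.1 ∘ θ) ∘ θ) ∘ θ = χ.1
    rw [Function.comp_assoc, Function.comp_assoc, r4]; rfl))
  obtain ⟨⟨⟨χ, h⟩, e⟩⟩ : Nonempty T.fixedPoints := by
    rw [← Fintype.card_pos_iff, Nat.pos_iff_ne_zero]
    intro h0
    rw [h0, Fintype.card_coe, show X.card = 8 by omega] at h3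
    exact absurd h3 (by decide)
  have e0 : χ ∘ θ = χ := congrArg Subtype.val e
  have n1 : χ ∘ s ≠ χ := fun e1 => nf χ h e1 (by
    rw [← e0, Function.comp_assoc, ← r5, ← Function.comp_assoc, e1])
  have n3 : (χ ∘ s) ∘ t ≠ χ := fun e1 => n1 (by
    calc χ ∘ s = χ ∘ (t ∘ t) ∘ s := by rw [r2]; rfl
      _ = (χ ∘ θ) ∘ t ∘ (s ∘ t) := by rw [e0, r3]; rfl
      _ = χ ∘ (s ∘ θ) ∘ s ∘ t := by rw [r5]; rfl
      _ = (χ ∘ s) ∘ (t ∘ θ) := by rw [r6]; rfl
      _ = χ := by rw [← Function.comp_assoc, e1, e0])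
  have n2 : χ ∘ t ≠ χ := fun e1 => n3 (by
    calc (χ ∘ s) ∘ t = χ ∘ θ ∘ s ∘ t := by rw [← Function.comp_assoc, e0]; rfl
      _ = χ := by rw [← r6, ← Function.comp_assoc, e1, e0])
  have i1 : ∀ {x y : B → ZMod 2}, x ∘ t = y → x = y ∘ t := fun e => by
    rw [← e, Function.comp_assoc, r2]; rfl
  have i2 : ∀ {x y : B → ZMod 2}, x ∘ s = y → x = y ∘ s := fun e => by
    rw [← e, Function.comp_assoc, r1]; rfl
  have f4 : 4 ≤ (X.filter (· ∘ j = χ ∘ j)).card := by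
    have hsub : ({χ, χ ∘ s, χ ∘ t, (χ ∘ s) ∘ t} : Finset _) ⊆ X.filter (· ∘ j = χ ∘ j) := by
      simp only [insert_subset_iff, singleton_subset_iff]
      exact ⟨mem_filter.2 ⟨h, rfl⟩, ms χ h _ rfl, mt χ h _ rfl,
        mt _ (cX hs χ h) _ (by rw [Function.comp_assoc, js])⟩
    refine le_trans (card_eq_four.2 ⟨_, _, _, _, n1.symm, n2.symm, n3.symm, fun e => n3 (i1 e.symm).symm,
      fun e => n2 ?_, fun e => n1 ?_, rfl⟩).ge (card_le_card hsub)
    · rw [Function.comp_assoc, r3, ← Function.comp_assoc] at e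
      rw [i2 e.symm, Function.comp_assoc, r1]; rfl
    · rw [i1 e.symm, Function.comp_assoc, r2]; rfl
  have h10 := card_eq_sum_card_image (· ∘ j) X
  rw [← add_sum_erase _ _ (mem_image_of_mem _ h)] at h10
  have h11 := card_nsmul_le_sum ((X.image (· ∘ j)).erase (χ ∘ j)) _ 2 fun y hy => f2 y (mem_of_mem_erase hy)
  rw [card_erase_of_mem (mem_image_of_mem _ h), smul_eq_mul] at h11
  omega

theorem rank_le_two {x : W} (h : ∃ k, k * x * k⁻¹ = e (rp 1)) : (1 - mat x).rank ≤ 2 := by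
  obtain ⟨k, hk⟩ := h
  have : 1 - mat x = mat k⁻¹ * diagonal ![2, 2, 0, 0, 0, 0, 0, 0] * mat k := by
    rw [show (diagonal ![2, 2, 0, 0, 0, 0, 0, 0] : Mt) = 1 - em (rp 1) by decide +kernel, ← mat_e, ← hk,
      mul_sub, sub_mul, mul_one, ← map_mul, ← map_mul, ← map_mul, inv_mul_cancel, map_one]
    congr 2; group
  rw [this]
  refine (rank_mul_le_left _ _).trans ((rank_mul_le_right _ _).trans ?_)
  rw [rank_diagonal]
  decide +kernel

theorem rank_add (A B : Mt) : (A + B).rank ≤ A.rank + B.rank := by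
  unfold rank
  refine (Submodule.finrank_mono ?_).trans (Submodule.finrank_add_le_finrank_add_finrank _ _)
  rintro _ ⟨v, rfl⟩
  rw [mulVecLin_apply, add_mulVec]
  exact Submodule.add_mem_sup ⟨v, rfl⟩ ⟨v, rfl⟩

theorem no_three {x y z : W} (hx : ∃ k, k * x * k⁻¹ = e (rp 1)) (hy : ∃ k, k * y * k⁻¹ = e (rp 1))
    (hz : ∃ k, k * z * k⁻¹ = e (rp 1)) : x * y * z ≠ e 1 := fun h => by
  have h1 : (1 - mat x) + (mat x * (1 - mat y) + mat (x * y) * (1 - mat z)) = diagonal fun _ => 2 := by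
    rw [show (diagonal fun _ => 2 : Mt) = 1 - -1 by decide +kernel, ← mat_e_one, ← h]
    simp only [map_mul]
    noncomm_ring
  have h2 := rank_add (1 - mat x) (mat x * (1 - mat y) + mat (x * y) * (1 - mat z))
  have h3 := rank_add (mat x * (1 - mat y)) (mat (x * y) * (1 - mat z))
  have h4 := rank_mul_le_right (mat x) (1 - mat y)
  have h5 := rank_mul_le_right (mat (x * y)) (1 - mat z)
  have := rank_le_two hx
  have := rank_le_two hy
  have := rank_le_two hz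
  rw [h1, rank_diagonal, show Fintype.card {i : Fin 8 // (2 : ℚ) ≠ 0} = 8 by decide +kernel] at h2
  omega

end CL.StdO8
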