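/-
A standard subgroup isomorphic to the rotation subgroup of the Weyl group of type E8: the model.
-/
import Cfsg.Agent.INV.STD.O8C

set_option autoImplicit false

namespace CL.StdO8

open Matrix Subgroup Finset

theorem card_lt_of_P {B : Type} [AddCommGroup B] [Fintype B] {φ : B → W} (hφ : ∀ a b, φ (a + b) = φ a * φ b)
    (h2 : ∀ a : B, a + a = 0) (hi : Function.Injective φ) (hP : ∀ b, φ b ∈ P) : Fintype.card B ≤ 128 := by
  classical
  let R : Finset (B → ZMod 2) := univ.filter fun χ => ∃ v, Ev φ χ v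
  have mR : ∀ χ v, Ev φ χ v → χ ∈ R := fun χ v h => by
    simp only [R, mem_filter, mem_univ, true_and]; exact ⟨v, h⟩
  choose v hv using fun χ : R => (mem_filter.1 χ.2).2
  have ho : ∀ p q, p ≠ q → v p ⬝ᵥ v q = 0 := fun p q h => (hv p).orth (hv q) fun e => h (Subtype.ext e)
  have h8 := card_le_of_orth v (fun χ => (hv χ).1) ho
  by_cases h7 : Fintype.card R = 8
  · let t := (Fintype.equivFinOfCardEq h7).symm
    let M : Mt := of fun i j => v (t j) i
    have h1 : Mᵀ * M = diagonal fun j => v (t j) ⬝ᵥ v (t j) := by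
      ext i j
      by_cases h : i = j
      · subst h; rw [diagonal_apply_eq]; rfl
      · rw [diagonal_apply_ne _ h]; exact ho _ _ (t.injective.ne h)
    have h3 : M.det ≠ 0 := fun h => by
      have := congrArg det h1
      rw [det_mul, h, mul_zero, det_diagonal, eq_comm, prod_eq_zero_iff] at this
      obtain ⟨j, -, hj⟩ := this
      exact (hv _).1 (dotProduct_self_eq_zero.1 hj)
    have h4 : ∀ b, ∑ j, (t j).1 b = 0 := fun b => by
      have h5 : mat (φ b) * M = M * em fun j => (t j).1 b := by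
        ext i j
        rw [em, mul_diagonal, mul_comm]
        exact congrFun ((hv (t j)).2 b) i
      have := congrArg det h5
      rw [det_mul, det_mul, det_of_mem (hP b), ← mat_e, mul_comm] at this
      exact e_mem_P.1 (mem_P.2 (mul_left_cancel₀ h3 this).symm)
    let R' := R.erase (t 0).1
    have h6 := Fintype.card_le_of_injective (fun (b : B) (χ : R') => χ.1 b) fun a b h => hi (by
      have h0 : φ 0 = 1 := by simpa using hφ 0 0
      by_contra hn
      obtain ⟨χ, w, h1, h3⟩ := exists_ev hφ h2 (b := a + b) fun t => hn (by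
        rw [← mul_one (φ b), ← t, ← hφ, add_left_comm, h2, add_zero])
      have h9 : ∀ j, j ≠ 0 → (t j).1 (a + b) = 0 := fun j hj => by
        rw [(hv _).add hφ, show (t j).1 a = (t j).1 b from congrFun h ⟨_, mem_erase.2
          ⟨fun e => hj (t.injective (Subtype.ext e)), (t j).2⟩⟩, CharTwo.add_self_eq_zero]
      have h10 := h4 (a + b)
      rw [sum_eq_single 0 (fun j _ hj => h9 j hj) (by simp)] at h10
      obtain ⟨j, hj⟩ := t.surjective ⟨χ, mR χ w h1⟩
      rw [show χ = (t j).1 by rw [hj]] at h3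
      by_cases hj0 : j = 0
      · rw [hj0, h10] at h3; exact zero_ne_one h3
      · rw [h9 j hj0] at h3; exact zero_ne_one h3)
    rw [Fintype.card_coe] at h7
    rwa [Fintype.card_fun, ZMod.card, Fintype.card_coe, card_erase_of_mem (t 0).2, h7] at h6
  · rw [Fintype.card_coe] at h7 h8
    exact (card_le_pow hφ h2 (j := id) hi (R := R) mR).trans (Nat.pow_le_pow_right two_pos (by omega : R.card ≤ 7))

variable {G : Type*} [Group G]

/-- the centralizer of the component -/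
def Kc (F : W → G) : Subgroup G := centralizer (F '' P)

theorem mem_Kc {F : W → G} {k : G} : k ∈ Kc F ↔ ∀ x ∈ P, F x * k = k * F x :=
  ⟨fun h x hx => h _ ⟨x, hx, rfl⟩, fun h _ ⟨x, hx, t⟩ => t ▸ h x hx⟩

/-- `m` acts on the component as `w` -/
def Act (F : W → G) (m : G) (w : W) : Prop := ∀ x ∈ P, m * F x * m⁻¹ = F (w * x * w⁻¹)

/-- the model of the centralizer of the involution `F (e 1)` -/
structure Fr (F : W → G) : Prop where
  mul : ∀ x ∈ P, ∀ y ∈ P, F (x * y) = F x * F y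
  inj : ∀ x ∈ P, ∀ y ∈ P, F x = F y → x = y
  act : ∀ m, m * F (e 1) = F (e 1) * m → ∃ w, Act F m w
  ti : ∀ g, g * F (e 1) * g⁻¹ ∈ Kc F → g * F (e 1) * g⁻¹ = F (e 1)
  uniq : ∀ k ∈ Kc F, k * k = 1 → k = 1 ∨ k = F (e 1)
  noinv : ∀ k ∈ Kc F, ∀ c ∈ Kc F, k * k = F (e 1) → c * k * c⁻¹ ≠ k⁻¹

theorem conj_P {x : W} (hx : x ∈ P) (w : W) : w * x * w⁻¹ ∈ P := (inferInstance : P.Normal).conj_mem x hx w

theorem e1_P : e 1 ∈ P := ζ.2

theorem conj_e1 (w : W) : w * e 1 * w⁻¹ = e 1 := by rw [e_one_comm, mul_inv_cancel_right]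

variable {F : W → G}

theorem Act.mul {m n : G} {v w : W} (h : Act F m v) (h' : Act F n w) : Act F (m * n) (v * w) := fun x hx => by
  rw [show m * n * F x * (m * n)⁻¹ = m * (n * F x * n⁻¹) * m⁻¹ by group, h' x hx, h _ (conj_P hx w)]
  congr 1; group

theorem Act.inv {m : G} {w : W} (h : Act F m w) : Act F m⁻¹ w⁻¹ := fun x hx => by
  have := h _ (conj_P hx w⁻¹)
  rw [show w * (w⁻¹ * x * w⁻¹⁻¹) * w⁻¹ = x by group] at this
  rw [← this]; group

theorem act_one {k : G} : Act F k 1 ↔ k ∈ Kc F := by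
  simp only [Act, mem_Kc, one_mul, inv_one, mul_one, mul_inv_eq_iff_eq_mul]
  exact forall₂_congr fun _ _ => eq_comm

theorem Act.neg {m : G} {w : W} (h : Act F m w) : Act F m (w * e 1) := fun x hx => by
  rw [h x hx, show w * e 1 * x * (w * e 1)⁻¹ = w * (e 1 * x * (e 1)⁻¹) * w⁻¹ by group, ← e_one_comm,
    mul_inv_cancel_right]

theorem Act.comm {m : G} {w : W} (h : Act F m w) : m * F (e 1) = F (e 1) * m := by
  rw [← mul_inv_eq_iff_eq_mul, h _ e1_P, conj_e1]

namespace Fr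

variable (h : Fr F)
include h

theorem one : F 1 = 1 := by simpa using h.mul 1 (one_mem _) 1 (one_mem _)

theorem inv {x : W} (hx : x ∈ P) : F x⁻¹ = (F x)⁻¹ :=
  eq_inv_of_mul_eq_one_left (by rw [← h.mul _ (inv_mem hx) _ hx, inv_mul_cancel, h.one])

theorem zsq : F (e 1) * F (e 1) = 1 := by rw [← h.mul _ e1_P _ e1_P, e_sq, h.one]

theorem zne : F (e 1) ≠ 1 := fun t => e_one_ne (h.inj _ e1_P _ (one_mem _) (t.trans h.one.symm))

theorem act_F {x : W} (hx : x ∈ P) : Act F (F x) x := fun y hy => by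
  rw [h.mul _ (mul_mem hx hy) _ (inv_mem hx), h.mul _ hx _ hy, h.inv hx]

theorem z_mem : F (e 1) ∈ Kc F := mem_Kc.2 fun _ hx => (h.act_F hx).comm

theorem act_eq {m : G} {v w : W} (h1 : Act F m v) (h2 : Act F m w) : w = v ∨ w = v * e 1 :=
  (cent_P (w := v⁻¹ * w) fun x hx => by
    have := h.inj _ (conj_P hx v) _ (conj_P hx w) ((h1 x hx).symm.trans (h2 x hx))
    calc v⁻¹ * w * x = v⁻¹ * (w * x * w⁻¹) * w := by group
      _ = _ := by rw [← this]; group).imp (fun t => (inv_mul_eq_one.1 t).symm) inv_mul_eq_iff_eq_mul.1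

theorem eq_of_mem {x : W} (hx : x ∈ P) (hk : F x ∈ Kc F) : x = 1 ∨ x = e 1 := by
  simpa using h.act_eq (act_one.2 hk) (h.act_F hx)

theorem decomp {m : G} {w : W} (h1 : Act F m w) (hw : w ∈ P) : ∃ k ∈ Kc F, m = F w * k :=
  ⟨(F w)⁻¹ * m, act_one.1 (by simpa using (h.act_F hw).inv.mul h1), by group⟩

theorem conj (g : G) : Fr fun x => g * F x * g⁻¹ := by
  have hk : ∀ k, k ∈ Kc (fun x => g * F x * g⁻¹) → g⁻¹ * k * g ∈ Kc F := fun k hk => mem_Kc.2 fun x hx => by
    calc _ = g⁻¹ * (g * F x * g⁻¹ * k) * g := by group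
      _ = _ := by rw [mem_Kc.1 hk x hx]; group
  refine ⟨fun x hx y hy => by rw [h.mul x hx y hy]; group, fun x hx y hy t => h.inj x hx y hy (by simpa using t),
    fun m hm => ?_, fun c hc => ?_, fun k hk' h2 => ?_, fun k hk' c hc h2 t => ?_⟩
  · obtain ⟨w, hw⟩ := h.act (g⁻¹ * m * g) (by
      calc _ = g⁻¹ * (m * (g * F (e 1) * g⁻¹)) * g := by group
        _ = _ := by rw [hm]; group)
    exact ⟨w, fun x hx => by beta_reduce; rw [← hw x hx]; group⟩
  · have := h.ti (g⁻¹ * c * g) (by convert hk _ hc using 1; group)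
    conv_rhs => rw [← this]
    group
  · rcases h.uniq _ (hk k hk') (by
      calc _ = g⁻¹ * (k * k) * g := by group
        _ = _ := by rw [h2]; group) with t | t
    · exact .inl (by simpa [mul_assoc] using congrArg (g * · * g⁻¹) t)
    · exact .inr (by rw [← t]; group)
  · exact h.noinv _ (hk k hk') _ (hk c hc) (by
      calc _ = g⁻¹ * (k * k) * g := by group
        _ = _ := by rw [h2]; group) (by
      calc _ = g⁻¹ * (c * k * c⁻¹) * g := by group
        _ = _ := by rw [t]; group)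

theorem tw (w : W) : Fr fun x => F (w⁻¹ * x * w⁻¹⁻¹) := by
  have hk : Kc (fun x => F (w⁻¹ * x * w⁻¹⁻¹)) = Kc F := by
    ext k
    simp only [mem_Kc]
    exact ⟨fun t x hx => by simpa [mul_assoc] using t _ (conj_P hx w), fun t x hx => t _ (conj_P hx _)⟩
  refine ⟨fun x hx y hy => ?_, fun x hx y hy t => ?_, ?_, ?_, ?_, ?_⟩
  · rw [← h.mul _ (conj_P hx _) _ (conj_P hy _)]; congr 1; group
  · simpa using h.inj _ (conj_P hx _) _ (conj_P hy _) t
  all_goals simp only [hk, conj_e1]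
  · exact fun m hm => let ⟨v, hv⟩ := h.act m hm; ⟨w * v * w⁻¹, fun x hx => by
      beta_reduce; rw [hv _ (conj_P hx _)]; congr 1; group⟩
  exacts [h.ti, h.uniq, h.noinv]

end Fr

/-- the product of the component and its centralizer -/
def LK (F : W → G) : Subgroup G where
  carrier := {m | ∃ w ∈ P, Act F m w}
  one_mem' := ⟨1, one_mem _, act_one.2 (one_mem _)⟩
  mul_mem' := fun ⟨_, hv, h⟩ ⟨_, hw, h'⟩ => ⟨_, mul_mem hv hw, h.mul h'⟩
  inv_mem' := fun ⟨_, hv, h⟩ => ⟨_, inv_mem hv, h.inv⟩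

theorem kmul {k : G} (hk : k ∈ Kc F) {y : W} (hy : y ∈ P) (a b : G) : a * k * (F y * b) = a * F y * (k * b) := by
  rw [mul_assoc, ← mul_assoc k, ← mem_Kc.1 hk y hy]; group

namespace Fr

variable (h : Fr F)
include h

theorem comm_mem {m n : G} (hm : m * F (e 1) = F (e 1) * m) (hn : n * F (e 1) = F (e 1) * n) :
    m * n * m⁻¹ * n⁻¹ ∈ LK F := by
  obtain ⟨v, hv⟩ := h.act m hm
  obtain ⟨w, hw⟩ := h.act n hn
  exact ⟨_, comm_mem_P v w, ((hv.mul hw).mul hv.inv).mul hw.inv⟩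

theorem conj_mem {m n : G} (hm : m * F (e 1) = F (e 1) * m) (hn : n ∈ LK F) : m * n * m⁻¹ ∈ LK F := by
  obtain ⟨v, hv⟩ := h.act m hm
  obtain ⟨w, hw, hw'⟩ := hn
  exact ⟨_, conj_P hw v, (hv.mul hw').mul hv.inv⟩

theorem mem_of_mul {x y : W} (hx : x ∈ P) (hy : y ∈ P) {k l : G} (hk : k ∈ Kc F) (hl : l ∈ Kc F)
    (t : F x * k = F y * l) : k = l ∨ k = F (e 1) * l := by
  have h1 : F (x⁻¹ * y) = k * l⁻¹ := by
    rw [h.mul _ (inv_mem hx) _ hy, h.inv hx, eq_mul_inv_iff_mul_eq, mul_assoc, ← t]; group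
  rcases h.eq_of_mem (mul_mem (inv_mem hx) hy) (h1 ▸ mul_mem hk (inv_mem hl)) with t | t <;> rw [t] at h1
  · exact .inl (mul_inv_eq_one.1 (h1.symm.trans h.one))
  · exact .inr (by rw [h1]; group)

theorem mem_of_sq {x : W} (hx : x ∈ P) {k : G} (hk : k ∈ Kc F) (h2 : k * k = 1) : ∃ y ∈ P, F x * k = F y := by
  rcases h.uniq k hk h2 with rfl | rfl
  exacts [⟨x, hx, mul_one _⟩, ⟨_, mul_mem hx e1_P, (h.mul _ hx _ e1_P).symm⟩]

theorem sq_cases {x : W} (hx : x ∈ P) {k : G} (hk : k ∈ Kc F) (h2 : F x * k * (F x * k) = 1) :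
    (∃ y ∈ P, F x * k = F y) ∨ (x * x = e 1 ∧ k * k = F (e 1)) := by
  rw [kmul hk hx, ← h.mul _ hx _ hx] at h2
  rcases h.mem_of_mul (mul_mem hx hx) (one_mem _) (mul_mem hk hk) (one_mem _)
    (h2.trans (by rw [h.one, mul_one])) with t | t
  · exact .inl (h.mem_of_sq hx hk t)
  · rw [mul_one] at t
    refine .inr ⟨h.inj _ (mul_mem hx hx) _ e1_P ?_, t⟩
    rw [t, ← h.zsq] at h2
    exact mul_right_cancel h2

/-- large elementary abelian subgroups lie in the component -/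
theorem mem_of_card {B : Type} [AddCommGroup B] [Finite B] (h2 : ∀ a : B, a + a = 0) {β : B → G}
    (hβ : ∀ a b, β (a + b) = β a * β b) (hi : Function.Injective β) (hc : 64 ≤ Nat.card B)
    (hL : ∀ b, β b ∈ LK F) (b : B) : ∃ x ∈ P, β b = F x := by
  classical
  by_contra hb
  have h0 : β 0 = 1 := by simpa using hβ 0 0
  have hs : ∀ a, β a * β a = 1 := fun a => by rw [← hβ, h2, h0]
  have hm : ∀ a b, β a * β b = β b * β a := fun a b => by rw [← hβ, ← hβ, add_comm]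
  have h1 : ∀ a, (¬∃ x ∈ P, β a = F x) → ∃ x ∈ P, ∃ k ∈ Kc F, β a = F x * k ∧ x * x = e 1 ∧ k * k = F (e 1) :=
    fun a ha => by
    obtain ⟨x, hx, t⟩ := hL a
    obtain ⟨k, hk, t⟩ := h.decomp t hx
    exact ⟨x, hx, k, hk, t, (h.sq_cases hx hk (t ▸ hs a)).resolve_left (t ▸ ha)⟩
  let A : AddSubgroup B :=
    { carrier := {a | ∃ x ∈ P, β a = F x}
      zero_mem' := ⟨1, one_mem _, h0.trans h.one.symm⟩
      add_mem' := fun ⟨x, hx, t⟩ ⟨y, hy, t'⟩ => ⟨_, mul_mem hx hy, by rw [hβ, t, t', h.mul _ hx _ hy]⟩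
      neg_mem' := fun {a} t => by rwa [neg_eq_of_add_eq_zero_left (h2 a)] }
  obtain ⟨J, hJ, k, hk, t, j2, k2⟩ := h1 b hb
  have hA : A.index = 2 := AddSubgroup.index_eq_two_iff.2 ⟨b, fun a => by
    by_cases ha : a ∈ A
    · exact .inr ⟨ha, fun t => hb ((AddSubgroup.add_mem_cancel_left _ ha).1 t)⟩
    · refine .inl ⟨?_, ha⟩
      obtain ⟨x, hx, l, hl, t', -, l2⟩ := h1 a ha
      have h3 := hm a b
      rw [t, t', kmul hl hJ, kmul hk hx, ← h.mul _ hx _ hJ, ← h.mul _ hJ _ hx] at h3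
      have h4 : l * k = k * l := (h.mem_of_mul (mul_mem hx hJ) (mul_mem hJ hx) (mul_mem hl hk)
        (mul_mem hk hl) h3).resolve_right fun t => h.noinv k hk l hl k2 (by
          rw [t, ← k2, mul_assoc, mul_inv_cancel_right, eq_inv_iff_mul_eq_one, mul_assoc, k2, h.zsq])
      change ∃ x ∈ P, _
      rw [hβ, t, t', kmul hl hJ, ← h.mul _ hx _ hJ]
      refine h.mem_of_sq (mul_mem hx hJ) (mul_mem hl hk) ?_
      rw [mul_assoc, ← mul_assoc k, ← h4, mul_assoc, k2, ← mul_assoc, l2, h.zsq]⟩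
  choose φ hP hφ using fun a : A => a.2
  have := Fintype.ofFinite A
  have h5 := card_le_of_J (φ := φ) (fun a c => h.inj _ (hP _) _ (mul_mem (hP _) (hP _)) (by
      rw [h.mul _ (hP _) _ (hP _), ← hφ, ← hφ, ← hφ, ← hβ]; rfl)) (fun a => Subtype.ext (h2 _))
    (fun a c t => Subtype.ext (hi (by rw [hφ, hφ, t]))) j2 fun a => h.inj _ (mul_mem hJ (hP _)) _
      (mul_mem (hP _) hJ) (by
      have := hm b a
      rw [t, hφ, mul_assoc, ← mem_Kc.1 hk _ (hP a), ← mul_assoc, ← mul_assoc] at this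
      rw [h.mul _ hJ _ (hP _), h.mul _ (hP _) _ hJ, mul_right_cancel this])
  have h6 := A.index_mul_card
  rw [hA, Nat.card_eq_fintype_card (α := A)] at h6
  omega

end Fr

end CL.StdO8
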