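/-
Finite checks in the affine space of dimension three over the field with two elements.
-/
import Cfsg.Agent.INV.STD.O8F

set_option autoImplicit false
set_option maxRecDepth 100000

namespace CL.StdO8

/-- nine points -/
def yv (q : Option (Fin 8)) : V := q.elim 1 pt

/-- rotations about a point -/
def rot (a : Fin 8) (k : Fin 7) (x : Fin 8) : Fin 8 :=
  x3 0 a ((![0, 2, 4, 6, 3, 1, 7, 5] : Fin 8 → Fin 8)^[k] (x3 0 a x))

theorem rot_spec : ∀ a k, Ag (rot a k) ∧ pt a ∘ rot a k = pt a := by decide +kernel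

theorem rot_trans : ∀ a b c, b ≠ a → c ≠ a → ∃ k, pt b ∘ rot a k = pt c := by decide +kernel

theorem ot_yv : ∀ a q q', q ≠ q' → q ≠ some a → q' ≠ some a →
    (pt a + yv q) ∘ ot (pt a + yv q) = (yv q + yv q') ∘ ot (yv q + yv q') ∨
    (pt a + yv q') ∘ ot (pt a + yv q') = (yv q + yv q') ∘ ot (yv q + yv q') := by decide +kernel

theorem ot_six : ∀ i j, i ≠ j →
    pt i + pt j + 1 ∈ D0 ∧ (pt i + pt j + 1) ∘ ot (pt i + pt j + 1) = rp 4 ∘ ot (rp 4) := by decide +kernel

theorem yv_inj : ∀ a q q', yv q + yv q' = 0 ∨ yv q + yv q' = pt a → q = q' := by decide +kernel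

/-- an elation -/
def sw (a b c i : Fin 8) : Fin 8 := if i = a then b else if i = b then a else if i = c then x3 a b c else
  if i = x3 a b c then c else i

theorem sw_spec : ∀ a b c, a ≠ b → a ≠ c → b ≠ c → (x3 a b c ≠ a ∧ x3 a b c ≠ b ∧ x3 a b c ≠ c) ∧
    Ag (sw a b c) ∧ ∀ i, pt i ∘ sw a b c = pt (sw a b c i) := by decide +kernel

theorem exists_plane : ∀ j0 j1 j2 : Fin 8, ∃ a b c, (a ≠ j0 ∧ a ≠ j1 ∧ a ≠ j2) ∧
    (b ≠ j0 ∧ b ≠ j1 ∧ b ≠ j2) ∧ (c ≠ j0 ∧ c ≠ j1 ∧ c ≠ j2) ∧ x3 a b c = j0 := by decide +kernel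

/-- a permutation of the nine points -/
def p9 (q : Option (Fin 8)) : Option (Fin 8) := if q = none then some 1 else if q = some 1 then none else
  if q = some 2 then some 3 else if q = some 3 then some 2 else q

end CL.StdO8
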