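/-
A standard subgroup isomorphic to the rotation subgroup of the Weyl group of type E8: the central
involution is isolated.
-/
import Cfsg.Agent.INV.STD.O8G0

set_option autoImplicit false
set_option maxRecDepth 100000

namespace CL.StdO8

open Matrix Subgroup Finset

variable {G : Type*} [Group G] {F : W → G} {ε : V → G}

theorem trace_pt (i : Fin 8) : (mat (e (pt i))).trace = 6 := by
  rw [trace_e]; revert i; decide +kernel

theorem ne_neg_of_trace {v w : W} (hv : (mat v).trace = 6) (hw : (mat w).trace = 6) : w ≠ v * e 1 := fun t => by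
  rw [t, map_mul, mat_e_one, mul_neg, mul_one, trace_neg, hv] at hw
  norm_num at hw

/-- the frame of the component attached to one of the points -/
structure Nine (ε : V → G) (a : Fin 8) (F : W → G) (β : Fin 8 → Option (Fin 8)) (γ : Option (Fin 8) → Fin 8) :
    Prop where
  fr : Fr F
  z : ε (pt a) = F (e 1)
  ne : ∀ i, β i ≠ some a
  left : ∀ i, γ (β i) = i
  right : ∀ q ≠ some a, β (γ q) = q
  act : ∀ i, Act F (ε (yv (β i))) (e (pt i))
  mul : ∀ i j, ε (yv (β i)) * ε (yv (β j)) = F (e (pt i + pt j))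

theorem Fr.conj_refl (h : Fr F) {s : Fin 8 → Fin 8} (hs : Ag s) :
    ∃ k ∈ P, ∀ {y : G} {i j : Fin 8}, Act F y (e (pt j)) → pt j ∘ s = pt i →
      F k * y * (F k)⁻¹ = F (e (pt i + pt j)) * y := by
  obtain ⟨k, hk, t⟩ := exists_P (Q s)
  refine ⟨k, hk, fun {y i j} hy hij => ?_⟩
  have h1 := hy _ (inv_mem hk)
  rw [h.inv hk] at h1
  rw [show e (pt i + pt j) = k * (e (pt j) * k⁻¹ * (e (pt j))⁻¹) by
    rw [e_add, ← hij, ← Q_conj hs, ← t, e_inv]; group, h.mul _ hk _ (conj_P (inv_mem hk) _), ← h1]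
  group

theorem Ex.exists_nine (hε : Ex F ε) (h : Fr F) (hc : IsConj (F (e 1)) (ε (pt 0))) (a : Fin 8) :
    ∃ F' β γ, Nine ε a F' β γ := by
  classical
  have S := hε.st
  have hY : ∀ q, IsConj (F (e 1)) (ε (yv q)) := fun q => by
    cases q with
    | none => rw [show ε (yv none) = F (e 1) from hε.ev 1 (by decide)]
    | some i => exact hc.trans (S.isConj_of trivial trivial (by revert i; decide +kernel))
  obtain ⟨g, t⟩ := isConj_iff.1 (hY (some a))
  have h' := h.conj g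
  have hz : ε (pt a) = (fun x => g * F x * g⁻¹) (e 1) := t.symm
  generalize (fun x => g * F x * g⁻¹) = F' at h' hz
  have hY' : ∀ q, IsConj (F' (e 1)) (ε (yv q)) := fun q => hz ▸ (hY (some a)).symm.trans (hY q)
  have h1 : ∀ q ≠ some a, ε (yv q) ∉ LK F' := fun q hq hm => by
    have h2 : ∀ b ≠ a, ∀ c ≠ a, pt c + pt b ∈ S.H F' := fun b hb c hc => by
      obtain ⟨k, t⟩ := rot_trans a b c hb hc
      exact t ▸ S.comm_mem h' trivial hz (rot_spec a k).1 (rot_spec a k).2 trivial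
    have h3 := S.self_mem h' trivial hz
    obtain ⟨b, hb, h4⟩ : ∃ b ≠ a, pt b ∈ S.H F' := by
      cases q with
      | some b => exact ⟨b, fun t => hq (congrArg _ t), trivial, hm⟩
      | none =>
        obtain ⟨b, hb, t⟩ : ∃ b ≠ a, pt b = (∑ i, if i = a then pt a else pt i + pt b) + 1 := by
          clear * -; revert a; decide +kernel
        refine ⟨b, hb, t ▸ add_mem (sum_mem fun i _ => ?_) ⟨trivial, hm⟩⟩
        split_ifs with hi
        exacts [h3, h2 b hb i hi]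
    have h5 : ∀ i, pt i ∈ S.H F' := fun i => by
      by_cases hi : i = a
      · exact hi ▸ h3
      · simpa [add_assoc, V.add_self] using add_mem (h2 b hb i hi) h4
    have h6 : ∀ c, c ∈ S.H F' := fun c => by
      rw [show c = sp pt c by clear * -; revert c; decide +kernel]; exact sp_mem h5 c
    choose φ hP hφ using fun c => S.inL h' (g := fun i => pt (Fin.castLE (by omega) i)) (fun _ => h6 _)
      (by decide +kernel) (h6 c)
    have := card_lt_of_P (φ := φ) (fun a c => h'.inj _ (hP _) _ (mul_mem (hP _) (hP _)) (by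
      rw [h'.mul _ (hP _) _ (hP _), ← hφ, ← hφ, ← hφ, S.add _ trivial _ trivial])) V.add_self
      (fun a c t => S.eq trivial trivial (by rw [hφ, hφ, t])) hP
    simp at this
  have hcm : ∀ c, ε c * F' (e 1) = F' (e 1) * ε c := fun c => hz ▸ S.comm trivial trivial
  let A : Subgroup W :=
    { carrier := {w | ∃ c, Act F' (ε c) w}
      one_mem' := ⟨0, S.zero ▸ act_one.2 (one_mem _)⟩
      mul_mem' := fun ⟨c, hc⟩ ⟨d, hd⟩ => ⟨c + d, S.add c trivial d trivial ▸ hc.mul hd⟩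
      inv_mem' := fun ⟨c, hc⟩ => ⟨c, inv_eq_of_mul_eq_one_right (S.sq (c := c) trivial) ▸ hc.inv⟩ }
  obtain ⟨k, hk⟩ := refl_frame (A := A) fun ⟨w, c, hw⟩ => ⟨2, Subtype.ext (by
    change w ^ (2 + 2) = 1
    rw [pow_add, pow_two]
    rcases h'.act_eq (act_one.2 (one_mem _)) (S.sq (c := c) trivial ▸ hw.mul hw) with t | t <;> rw [t]
    · exact one_mul _
    · rw [one_mul, e_sq])⟩
  have h'' := h'.tw k
  have h7 : ∀ q : {q // q ≠ some a}, ∃ i, Act (fun x => F' (k⁻¹ * x * k⁻¹⁻¹)) (ε (yv q)) (e (pt i)) := fun q => by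
    obtain ⟨l, -, hl⟩ := h'.outer (hY' q) (hcm _) (h1 q q.2)
    obtain ⟨i, hi⟩ := hk _ ⟨_, hl⟩ (by
      rw [← trace_pt 0, ← trace_conj l]; congr 2; group)
    exact ⟨i, fun x hx => by
      beta_reduce; rw [hl _ (conj_P hx _), ← hi]; congr 1; group⟩
  have hz' : ε (pt a) = (fun x => F' (k⁻¹ * x * k⁻¹⁻¹)) (e 1) := by beta_reduce; rw [conj_e1, hz]
  replace hY : ∀ q, IsConj (ε (pt a)) (ε (yv q)) := hz ▸ hY'
  clear hk hcm h1 hY' hz h'
  generalize (fun x => F' (k⁻¹ * x * k⁻¹⁻¹)) = F₂ at h'' h7 hz'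
  choose γ hγ using h7
  have h8 : ∀ q q', ε (yv q.1 + yv q'.1) = F₂ (e (pt (γ q) + pt (γ q'))) ∨
      ε (yv q.1 + yv q'.1) = F₂ (e (pt (γ q) + pt (γ q') + 1)) := fun q q' => by
    have hP : e (pt (γ q) + pt (γ q')) ∈ P := D0_P (by generalize γ q = i, γ q' = j; revert i j; decide +kernel)
    have h9 := (hγ q).mul (hγ q')
    rw [← e_add, ← S.add _ trivial _ trivial] at h9
    obtain ⟨l, hl, t⟩ := h''.decomp h9 hP
    have h10 := S.sq (c := yv q.1 + yv q'.1) trivial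
    rw [t, kmul hl hP, ← h''.mul _ hP _ hP, e_sq, h''.one, one_mul] at h10
    rcases h''.uniq l hl h10 with rfl | rfl
    · exact .inl (t.trans (mul_one _))
    · exact .inr (by rw [t, e_add _ 1, h''.mul _ hP _ e1_P])
  have hi : Function.Injective γ := fun q q' t => Subtype.ext (by
    refine yv_inj a _ _ ((h8 q q').imp (fun t' => S.inj _ trivial ?_) fun t' => S.eq trivial trivial ?_)
    · rw [t', t, V.add_self, e_zero, h''.one]
    · rw [t', t, V.add_self, zero_add, hz'])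
  let T := Equiv.ofBijective γ ((Fintype.bijective_iff_injective_and_card γ).2 ⟨hi, by simp⟩)
  have hT : ∀ i, γ (T.symm i) = i := T.apply_symm_apply
  refine ⟨F₂, fun i => T.symm i, fun q => if hq : q = some a then 0 else γ ⟨q, hq⟩, h'', hz',
    fun i => (T.symm i).2, fun i => by rw [dif_neg (T.symm i).2]; exact hT i,
    fun q hq => by rw [dif_neg hq]; exact congrArg Subtype.val (T.symm_apply_apply ⟨q, hq⟩),
    fun i => by simpa [hT] using hγ (T.symm i), fun i j => ?_⟩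
  have h9 := h8 (T.symm i) (T.symm j)
  rw [hT, hT] at h9
  rw [← S.add _ trivial _ trivial]
  by_cases hij : i = j
  · rw [hij, V.add_self, V.add_self, S.zero, e_zero, h''.one]
  refine h9.resolve_right fun t => h''.not_B ?_
  have h10 : ∀ i j, i ≠ j → ε (yv (T.symm i).1 + yv (T.symm j).1) = F₂ (e (pt i + pt j + 1)) →
      IsConj (ε (pt a)) (ε (pt a + yv (T.symm i).1)) := fun i j hij t => by
    obtain ⟨b, hb1, hb2⟩ : ∃ b, i ≠ b ∧ j ≠ b := by clear * -; revert i j; decide +kernel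
    obtain ⟨m, hm⟩ := rot_trans b j i hb2 hb1
    have a1 := hT j ▸ hγ (T.symm j)
    obtain ⟨l, -, hl⟩ := h''.conj_refl (rot_spec b m).1
    refine (hY (T.symm j).1).trans (isConj_iff.2 ⟨F₂ l, ?_⟩)
    rw [hl a1 hm, show pt i + pt j = 1 + (pt i + pt j + 1) by
      rw [add_comm (1 : V), add_assoc _ 1, V.add_self, add_zero], h''.st0.add _ (by decide) _ (ot_six i j hij).1, ← t, ← hz', ← S.add _ trivial _ trivial, ← S.add _ trivial _ trivial,
      add_assoc, add_assoc, V.add_self, add_zero]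
  have h12 : IsConj (ε (pt a)) (ε (yv (T.symm i).1 + yv (T.symm j).1)) := by
    rcases ot_yv a _ _ (fun t => hij (T.symm.injective (Subtype.ext t))) (T.symm i).2 (T.symm j).2 with t' | t'
    · exact (h10 i j hij t).trans (S.isConj_of trivial trivial t')
    · exact (h10 j i (Ne.symm hij) (by rw [add_comm, t, add_comm (pt i)])).trans (S.isConj_of trivial trivial t')
  rw [t, hz'] at h12
  exact h12.trans (h''.st0.isConj_of (ot_six i j hij).1 (by decide) (ot_six i j hij).2)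

/-- `n` permutes the nine points as `π` -/
def Pm (ε : V → G) (n : G) (π : Option (Fin 8) → Option (Fin 8)) : Prop := ∀ q, n * ε (yv q) * n⁻¹ = ε (yv (π q))

theorem Nine.plane {a : Fin 8} {β : Fin 8 → Option (Fin 8)} {γ : Option (Fin 8) → Fin 8} (h : Nine ε a F β γ)
    {n : G} {π : Option (Fin 8) → Option (Fin 8)} (hn : Pm ε n π) (h1 : π (some a) = some a)
    (h2 : ∀ q ≠ some a, π q ≠ some a) (i j k : Fin 8) :
    γ (π (β (x3 i j k))) = x3 (γ (π (β i))) (γ (π (β j))) (γ (π (β k))) := by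
  obtain ⟨w, hw⟩ := h.fr.act n (by
    rw [← mul_inv_eq_iff_eq_mul, ← h.z]; exact (hn (some a)).trans (by rw [h1]; rfl))
  refine plane_of_conj (w := w) (s := fun i => γ (π (β i))) (fun i => ?_) i j k
  have h3 := (hw.mul (h.act i)).mul hw.inv
  rw [hn, ← h.right _ (h2 _ (h.ne i))] at h3
  exact (h.fr.act_eq (h.act _) h3).resolve_right (ne_neg_of_trace (trace_pt _) (by rw [trace_conj, trace_pt]))

theorem Nine.exists_p9 {β : Fin 8 → Option (Fin 8)} {γ : Option (Fin 8) → Fin 8} (N : Nine ε 0 F β γ)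
    (S : St ⊤ ε) {n : G} (p0 : Pm ε n (Option.map ![0, 1, 2, 3, 5, 4, 7, 6])) : ∃ m, Pm ε m p9 := by
  have gi : ∀ {q q'}, q ≠ some 0 → q' ≠ some 0 → γ q = γ q' → q = q' := fun hq hq' t => by
    rw [← N.right _ hq, t, N.right _ hq']
  have h5 : ∀ q : Option (Fin 8), q ≠ some 0 → q.map ![0, 1, 2, 3, 5, 4, 7, 6] ≠ some (0 : Fin 8) ∧
      (q.map ![0, 1, 2, 3, 5, 4, 7, 6] = q → q = none ∨ q = some 1 ∨ q = some 2 ∨ q = some 3) := by decide +kernel
  have h1 := N.plane p0 rfl (fun q hq => (h5 q hq).1) (γ none) (γ (some 1)) (γ (some 2))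
  rw [N.right _ (by decide), N.right _ (by decide), N.right _ (by decide)] at h1
  have d1 : γ none ≠ γ (some 1) := fun t => absurd (gi (by decide) (by decide) t) (by decide)
  have d2 : γ none ≠ γ (some 2) := fun t => absurd (gi (by decide) (by decide) t) (by decide)
  have d3 : γ (some 1) ≠ γ (some 2) := fun t => absurd (gi (by decide) (by decide) t) (by decide)
  obtain ⟨⟨d4, d5, d6⟩, hs, h3⟩ := sw_spec _ _ _ d1 d2 d3
  have h4 : γ (some 3) = x3 (γ none) (γ (some 1)) (γ (some 2)) := by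
    have h6 := N.left (x3 (γ none) (γ (some 1)) (γ (some 2)))
    rcases (h5 _ (N.ne _)).2 (gi (h5 _ (N.ne _)).1 (N.ne _) (h1.trans h6.symm)) with t | t | t | t <;>
      rw [t] at h6
    exacts [absurd h6.symm d4, absurd h6.symm d5, absurd h6.symm d6, h6]
  obtain ⟨k, hk, h7⟩ := N.fr.conj_refl hs
  refine ⟨F k, fun q => ?_⟩
  by_cases hq : q = some 0
  · rw [hq, mul_inv_eq_iff_eq_mul]
    have := (N.fr.act_F hk).comm
    rwa [← N.z] at this
  · have h6 : β (sw (γ none) (γ (some 1)) (γ (some 2)) (γ q)) = p9 q := by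
      have hi : ∀ q' ≠ some 0, γ q = γ q' ↔ q = q' := fun q' hq' => ⟨gi hq hq', congrArg γ⟩
      simp only [sw, p9, ← h4, hi none (by decide), hi (some 1) (by decide), hi (some 2) (by decide),
        hi (some 3) (by decide)]
      split_ifs
      exacts [N.right _ (by decide), N.right _ (by decide), N.right _ (by decide), N.right _ (by decide),
        N.right _ hq]
    have h8 := h7 (N.act (γ q)) (h3 _)
    rwa [← N.mul, mul_assoc (ε _), S.sq trivial, mul_one, h6, N.right q hq] at h8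

theorem Ex.false (hε : Ex F ε) (h : Fr F) (hc : IsConj (F (e 1)) (ε (pt 0))) : False := by
  have S := hε.st
  have h0 : ∀ s, Ag s ∧ (∀ q, yv q ∘ s = yv (q.map s)) → ∃ n, Pm ε n (Option.map s) := fun s hs =>
    let ⟨n, hn⟩ := S.sym s hs.1; ⟨n, fun q => by rw [(hn _ trivial).2, hs.2]⟩
  obtain ⟨n0, p0⟩ := h0 ![0, 1, 2, 3, 5, 4, 7, 6] (by decide +kernel)
  obtain ⟨n1, p1⟩ := h0 ![1, 0, 3, 2, 4, 5, 6, 7] (by decide +kernel)
  obtain ⟨F₁, β, γ, N⟩ := hε.exists_nine h hc 0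
  obtain ⟨n2, p2⟩ := N.exists_p9 S p0
  clear N β γ
  obtain ⟨F₂, β, γ, N⟩ := hε.exists_nine h hc 4
  have p3 : Pm ε (n1 * n2) fun q => (p9 q).map ![1, 0, 3, 2, 4, 5, 6, 7] := fun q => by
    rw [← p1, ← p2]; group
  have h1 : ∀ q : Option (Fin 8), (q ≠ some 4 → (p9 q).map ![1, 0, 3, 2, 4, 5, 6, 7] ≠ some (4 : Fin 8)) ∧
      (q ≠ none → q ≠ some 0 → q ≠ some 1 → (p9 q).map ![1, 0, 3, 2, 4, 5, 6, 7] = q) := by decide +kernel
  obtain ⟨a, b, c, ha, hb, hc, t⟩ := exists_plane (γ none) (γ (some 0)) (γ (some 1))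
  have h2 := N.plane p3 rfl (fun q => (h1 q).1) a b c
  have h3 : ∀ a, (a ≠ γ none ∧ a ≠ γ (some 0) ∧ a ≠ γ (some 1)) →
      γ ((p9 (β a)).map ![1, 0, 3, 2, 4, 5, 6, 7]) = a := fun a ha => by
    rw [(h1 _).2 (fun t => ha.1 (by rw [← t, N.left])) (fun t => ha.2.1 (by rw [← t, N.left]))
      (fun t => ha.2.2 (by rw [← t, N.left])), N.left]
  rw [h3 a ha, h3 b hb, h3 c hc, t, N.right _ (by decide)] at h2
  have := congrArg β h2
  rw [N.right _ (by decide), N.right _ (by decide)] at this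
  exact absurd this (by decide)

namespace Fr

variable (h : Fr F)
include h

theorem inner {b : G} (t : IsConj (F (e 1)) b) (hc : b * F (e 1) = F (e 1) * b) : b ∈ LK F := by
  by_contra hb
  obtain ⟨k, hk, h1⟩ := h.outer t hc hb
  have h2 : IsConj (F (e 1)) (F k * b * (F k)⁻¹) := t.trans (isConj_iff.2 ⟨_, rfl⟩)
  obtain ⟨ε, hε, t'⟩ := h.exists_ex (u := pt 0) (by decide) (h.sq_of_conj h2) (by
    simpa [mul_assoc] using ((h.act_F hk).mul h1).mul (h.act_F hk).inv)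
  exact hε.false h (t' ▸ h2)

theorem mem_conj {g : G} {u : V} (hu : u ∈ D0) (t : g * F (e 1) * g⁻¹ = F (e u)) {γ : Fin 6 → V}
    (hγ : (∀ i, γ i ∈ D0 ∧ u ∘ ot u = γ i ∘ ot (γ i)) ∧ ∀ a, sp γ a = 0 → a = 0) {y : V} (hy : y ∈ D0)
    (hc : IsConj (F (e 1)) (F (e y))) : ∃ x ∈ P, F (e y) = g * F x * g⁻¹ := by
  have h1 : ∀ y ∈ D0, IsConj (F (e 1)) (F (e y)) → y ∈ h.st0.H fun x => g * F x * g⁻¹ := fun y hy hc =>
    ⟨hy, (h.conj g).inner ((isConj_iff.2 ⟨g, rfl⟩).symm.trans hc) (by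
      beta_reduce; rw [t]; exact h.st0.comm hy hu)⟩
  exact h.st0.inL (h.conj g) (fun i => h1 _ (hγ.1 i).1 ((isConj_iff.2 ⟨g, t⟩).trans
    (h.st0.isConj_of hu (hγ.1 i).1 (hγ.1 i).2))) hγ.2 (h1 y hy hc)

theorem not_two : ¬IsConj (F (e 1)) (F (e (rp 1))) := fun t => by
  obtain ⟨g, t'⟩ := isConj_iff.1 t
  have h' := h.conj g
  have S := h.st0
  have cg : ∀ x, IsConj (F x) (g * F x * g⁻¹) := fun x => isConj_iff.2 ⟨g, rfl⟩
  have h1 := fun y => h.mem_conj (by decide) t' (γ := ![![0, 0, 0, 0, 0, 0, 1, 1], ![0, 0, 0, 0, 0, 1, 0, 1],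
    ![0, 0, 0, 0, 1, 0, 0, 1], ![0, 0, 0, 1, 0, 0, 0, 1], ![0, 0, 1, 0, 0, 0, 0, 1], ![0, 1, 0, 0, 0, 0, 0, 1]])
    (by decide +kernel) (y := y)
  have h2 : IsConj (F (e 1)) (F (e ![1, 0, 1, 0, 0, 0, 0, 0])) :=
    t.trans (S.isConj_of (by decide) (by decide) (by decide +kernel))
  obtain ⟨x, hx, t2⟩ := h1 _ (by decide) h2
  rcases h'.types hx (by beta_reduce; rw [← t2]; exact (cg _).symm.trans h2) (fun t3 => absurd
    (S.eq (d := rp 1) (by decide) (by decide) (t2.trans (by rw [t3, t']))) (by decide)) with t3 | t3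
  · refine t3.2.2 ?_
    beta_reduce
    rw [← t2, t', ← S.add _ (by decide) _ (by decide)]
    exact S.isConj_of (by decide) (by decide) (by decide +kernel)
  · have h3 := ((cg _).trans t3.1).trans (cg _).symm
    let y : Fin 3 → V := ![![0, 1, 0, 1, 0, 1, 1, 0], ![1, 0, 1, 0, 0, 1, 1, 0], ![0, 0, 1, 1, 0, 0, 0, 0]]
    have h4 : ∀ i, (y i ∈ D0 ∧ y i + rp 1 ∈ D0) ∧ (y i + rp 1) ∘ ot (y i + rp 1) = rp 2 ∘ ot (rp 2) ∧
        (rp 3 ∘ ot (rp 3) = y i ∘ ot (y i) ∨ rp 1 ∘ ot (rp 1) = y i ∘ ot (y i)) := by decide +kernel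
    have h5 : ∀ i, IsConj (F (e 1)) (F (e (y i))) := fun i => (h4 i).2.2.elim
      (fun t => h3.trans (S.isConj_of (by decide) (h4 i).1.1 t)) fun t4 => t.trans (S.isConj_of (by decide) (h4 i).1.1 t4)
    exact S.three h' (by decide) t'.symm (y := y) (fun i => (h4 i).1.1) (fun i => h1 _ (h4 i).1.1 (h5 i))
      (fun i => t.symm.trans (h5 i)) (fun i t4 => h.not_A ((t.trans t4).trans
        (S.isConj_of (h4 i).1.2 (by decide) (h4 i).2.1))) (by decide +kernel)

theorem not_four : ¬IsConj (F (e 1)) (F (e (rp 3))) := fun t => by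
  obtain ⟨g, t'⟩ := isConj_iff.1 t
  have h' := h.conj g
  have S := h.st0
  have h2 : IsConj (F (e 1)) (F (e ![0, 0, 1, 0, 1, 0, 1, 1])) :=
    t.trans (S.isConj_of (by decide) (by decide) (by decide +kernel))
  obtain ⟨x, hx, t2⟩ := h.mem_conj (by decide) t' (γ := ![![0, 0, 0, 1, 0, 1, 1, 1], ![0, 0, 0, 1, 1, 0, 1, 1],
    ![0, 0, 0, 1, 1, 1, 0, 1], ![0, 0, 0, 1, 1, 1, 1, 0], ![0, 0, 1, 0, 0, 1, 1, 1], ![0, 1, 0, 0, 0, 1, 1, 1]])
    (by decide +kernel) (by decide) h2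
  rcases h'.types hx (by beta_reduce; rw [← t2, t']; exact t.symm.trans h2) (fun t3 => absurd
    (S.eq (d := rp 3) (by decide) (by decide) (t2.trans (by rw [t3, t']))) (by decide)) with t3 | t3
  · exact h'.not_two t3.2.1
  · have := t3.2
    beta_reduce at this
    rw [← t2, t', ← S.add _ (by decide) _ (by decide)] at this
    exact h.not_A ((t.trans this).trans (S.isConj_of (by decide) (by decide) (by decide +kernel)))

theorem weak {x : W} (hx : x ∈ P) (t : IsConj (F (e 1)) (F x)) : x = e 1 := by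
  by_contra hn
  exact (h.types hx t hn).elim (fun t => h.not_two t.2.1) fun t => h.not_four t.1

theorem isolated {g : G} (hc : g * F (e 1) * g⁻¹ * F (e 1) = F (e 1) * (g * F (e 1) * g⁻¹)) :
    g * F (e 1) * g⁻¹ = F (e 1) := by
  have t : IsConj (F (e 1)) (g * F (e 1) * g⁻¹) := isConj_iff.2 ⟨g, rfl⟩
  have h' := h.conj g
  obtain ⟨w, hw, t1⟩ := h.inner t hc
  obtain ⟨k, hk, t1⟩ := h.decomp t1 hw
  rcases h.sq_cases hw hk (t1 ▸ h.sq_of_conj t) with ⟨y, hy, t2⟩ | ⟨t2, -⟩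
  · rw [t1, t2] at t ⊢
    rw [h.weak hy t]
  obtain ⟨-, x, hx, y, hy, x', hx', y', hy', c, d, c1, c2, c3, c4, c5, c6, c7, c8⟩ := J_data t2
  have h1 : ∀ x ∈ P, x * w = w * x → F x * (g * F (e 1) * g⁻¹) = g * F (e 1) * g⁻¹ * F x := fun x hx t => by
    rw [t1, mul_assoc, ← mem_Kc.1 hk x hx, ← mul_assoc, ← mul_assoc, ← h.mul _ hx _ hw, ← h.mul _ hw _ hx, t]
  have h2 : ∀ x ∈ P, ∀ y ∈ P, ∀ c, x * w = w * x → y * w = w * y → x * y = c * (y * x) → c ∈ P ∧
      ∃ l ∈ P, ∃ k ∈ Kc fun x => g * F x * g⁻¹, F c = g * F l * g⁻¹ * k := fun x hx y hy c a1 a2 a3 => by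
    obtain rfl : c = x * y * x⁻¹ * y⁻¹ := by rw [a3]; group
    obtain ⟨l, hl, t⟩ := h'.comm_mem (h1 x hx a1) (h1 y hy a2)
    refine ⟨comm_mem_P _ _, l, hl, ?_⟩
    rw [h.mul _ (conj_P hy x) _ (inv_mem hy), ← h.act_F hx _ hy, h.inv hy]
    exact h'.decomp t hl
  obtain ⟨hc', l, hl, m, hm, t3⟩ := h2 x hx y hy c c1 c2 c5
  obtain ⟨hd', l', hl', m', hm', t4⟩ := h2 x' hx' y' hy' d c3 c4 c6
  have h3 : F c * F c = F (e 1) := by rw [← h.mul _ hc' _ hc', c7]
  have h4 : F d * F c * (F d)⁻¹ = (F c)⁻¹ := by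
    rw [← h.mul _ hd' _ hc', c8, h.mul _ hc' _ (mul_mem e1_P hd'), h.mul _ e1_P _ hd', ← mul_assoc,
      mul_inv_cancel_right, eq_inv_iff_mul_eq_one, ← h3, mul_assoc, mul_assoc, ← mul_assoc, h3, h.zsq]
  have hz := h.zsq
  generalize F c = C, F d = D at t3 t4 h3 h4
  have hu : g * F (e 1) * g⁻¹ = (fun x => g * F x * g⁻¹) (e 1) := rfl
  replace t3 : C = (fun x => g * F x * g⁻¹) l * m := t3
  replace t4 : D = (fun x => g * F x * g⁻¹) l' * m' := t4
  rw [hu] at t ⊢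
  generalize (fun x => g * F x * g⁻¹) = F' at *
  have h5 : F (e 1) = F' (l * l) * (m * m) := by rw [← h3, t3, kmul hm hl, h'.mul _ hl _ hl]
  rcases h'.sq_cases (mul_mem hl hl) (mul_mem hm hm) (h5 ▸ hz) with ⟨y, hy, t5⟩ | ⟨-, t5⟩
  · rw [h5, t5] at t ⊢
    rw [h'.weak hy t.symm]
  · refine absurd ?_ (h'.noinv _ (mul_mem hm hm) _ hm' t5)
    have h6 : F' (l' * l) * (m' * m) = F' (l⁻¹ * l') * (m⁻¹ * m') := by
      rw [h'.mul _ hl' _ hl, ← kmul hm' hl, ← t3, ← t4, mul_inv_eq_iff_eq_mul.1 h4, t3, t4,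
        h'.mul _ (inv_mem hl) _ hl', ← kmul (inv_mem hm) hl', mem_Kc.1 (inv_mem hm) _ (inv_mem hl), h'.inv hl,
        _root_.mul_inv_rev]
    have hz' : ∀ a ∈ Kc F', a * F' (e 1) = F' (e 1) * a := fun a ha => (mem_Kc.1 ha _ e1_P).symm
    rw [← conj_mul]
    rcases h'.mem_of_mul (mul_mem hl' hl) (mul_mem (inv_mem hl) hl') (mul_mem hm' hm)
      (mul_mem (inv_mem hm) hm') h6 with t | t <;> rw [t]
    · group
    · rw [mul_assoc _ (m⁻¹ * m'), mul_inv_cancel_right, ← mul_assoc, mul_assoc _ m⁻¹, hz' _ (inv_mem hm),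
        ← mul_assoc, h'.zsq]
      group

end Fr

end CL.StdO8
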